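import Cfsg.Agent.H911.TD.KillII
import Cfsg.Agent.H866.D4Wf.Row

/-!
# S3509, `³D₄(q)`, the second class (helper164, asked for by helper866)

* `MTwo.conj` : transport of `MTwo` by an element of the rank one group `Φ (SL₂)`;
* `mtwo_of_cZ` : it is enough to treat `A = cZ`.
-/

set_option autoImplicit false
set_option linter.unusedSectionVars false
set_option maxHeartbeats 400000

open Cfsg

namespace Cfsg.Agent.H164.TD

open Cfsg.Agent.H911.TD (MTwo)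
open Cfsg.Agent.H873.RG (NSA)

section gen

variable {K₀ : Type} [Group K₀]

theorem nsa_cgr {A B : Type} [Group A] [Group B] (e : A ≃* B) (h : NSA A) : NSA B where
  simple := Cfsg.Agent.H106.RC.isSimple_cgr0 e h.simple
  ncomm := fun hc => h.ncomm ⟨⟨fun a b => by
    apply e.injective
    rw [map_mul, map_mul]
    exact hc.is_comm.comm _ _⟩⟩
  nalt := fun ⟨n, hn, ⟨e'⟩⟩ => h.nalt ⟨n, hn, ⟨e.trans e'⟩⟩

theorem centre_map {A B : Type*} [Group A] [Group B] (e : A ≃* B) :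
    (Subgroup.center A).map (e : A →* B) = Subgroup.center B := by
  ext b
  rw [Subgroup.mem_map, Subgroup.mem_center_iff]
  constructor
  · rintro ⟨a, ha, rfl⟩ g
    obtain ⟨h, rfl⟩ := e.surjective g
    have h1 := Subgroup.mem_center_iff.1 ha h
    show e h * e a = e a * e h
    rw [← map_mul, h1, map_mul]
  · intro h
    refine ⟨e.symm b, Subgroup.mem_center_iff.2 fun g => ?_, e.apply_symm_apply b⟩
    apply e.injective
    rw [map_mul, map_mul, e.apply_symm_apply]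
    exact h (e g)

/-- **transport of `MTwo`** -/
theorem mtwo_conj {x₀ x₁ : MulAut K₀} {F : Type} [Field F] {Φ : Matrix.SpecialLinearGroup (Fin 2) F →* K₀} {r : ℕ}
    (C : Matrix.SpecialLinearGroup (Fin 2) F) (hx : x₁ = MulAut.conj (Φ C) * x₀ * (MulAut.conj (Φ C))⁻¹)
    (hM : MTwo x₀ Φ r) : MTwo x₁ Φ r := by
  obtain ⟨M, m1, m2, m3, m4, m5, u, huM, hu1, hur, huΦ⟩ := hM
  obtain ⟨g, hg⟩ : ∃ g, g = Φ C := ⟨_, rfl⟩
  rw [← hg] at hx
  have hap : ∀ y, x₁ y = g * x₀ (g⁻¹ * y * g) * g⁻¹ := by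
    intro y
    rw [hx, MulAut.mul_apply, MulAut.mul_apply, MulAut.conj_apply, ← map_inv, MulAut.conj_apply, inv_inv]
  have hfx : ∀ y, x₁ y = y → x₀ (g⁻¹ * y * g) = g⁻¹ * y * g := by
    intro y hy
    rw [hap] at hy
    calc x₀ (g⁻¹ * y * g) = g⁻¹ * (g * x₀ (g⁻¹ * y * g) * g⁻¹) * g := by group
      _ = g⁻¹ * y * g := by rw [hy]
  have e : ↥M ≃* ↥(M.map (MulAut.conj g).toMonoidHom) := M.equivMapOfInjective _ (MulAut.conj g).injective
  refine ⟨M.map (MulAut.conj g).toMonoidHom, ?_, ?_, ?_, ?_, ?_, u, ?_, hu1, hur, huΦ⟩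
  · rintro _ ⟨m, hm, rfl⟩
    show x₁ (g * m * g⁻¹) = g * m * g⁻¹
    have e1 : g⁻¹ * (g * m * g⁻¹) * g = m := by group
    rw [hap, e1, m1 m hm]
  · rintro y hy _ ⟨m, hm, rfl⟩
    refine ⟨g⁻¹ * y * g * m * (g⁻¹ * y * g)⁻¹, m2 _ (hfx y hy) m hm, ?_⟩
    show g * (g⁻¹ * y * g * m * (g⁻¹ * y * g)⁻¹) * g⁻¹ = y * (g * m * g⁻¹) * y⁻¹
    group
  · rw [← Subgroup.map_commutator, m3]
  · exact nsa_cgr (QuotientGroup.congr _ _ e (centre_map e)) m4
  · intro y hy h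
    have h1 : g⁻¹ * y * g = 1 := by
      refine m5 _ (hfx y hy) fun m hm => ?_
      have h2 : y * (g * m * g⁻¹) = g * m * g⁻¹ * y := h _ ⟨m, hm, rfl⟩
      calc g⁻¹ * y * g * m = g⁻¹ * (y * (g * m * g⁻¹)) * g := by group
        _ = g⁻¹ * (g * m * g⁻¹ * y) * g := by rw [h2]
        _ = m * (g⁻¹ * y * g) := by group
    calc y = g * (g⁻¹ * y * g) * g⁻¹ := by group
      _ = 1 := by rw [h1]; group
  · refine ⟨u, huM, ?_⟩
    show g * u * g⁻¹ = u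
    rw [hg, ← huΦ, mul_inv_cancel_right]

end gen

section D4

open Cfsg.Lie Cfsg.Agent.ChevalleyStructure Cfsg.Agent.ChevalleyStructure.Elts
open Cfsg.Agent.H866.D4Wf Cfsg.Agent.H866.D4Wf.Frame Cfsg.Agent.H866.D4Wf.SLThree
open Cfsg.Agent.Nodes.RGDTwD4 Cfsg.Agent.Nodes.RGDTwNode.D4 Cfsg.Agent.KFacts.TwDFour.Out
open Cfsg.Agent.CpAut.RgdFix Cfsg.Agent.CpAut.RgdConj Cfsg.Agent.CpAut.RgdTwStd Cfsg.Agent.CpAut.RgdTwD4

variable {K : Type} [Field K] [Fintype K] {q : ℕ} (hK : Fintype.card K = q ^ 3) {φ : K →+* K} (hφ : ∀ x, φ x = x ^ q)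

/-- **it is enough to treat `A = cZ`** -/
theorem mtwo_of_cZ (hq : IsPrimePow q) (h3 : q % 3 = 2) {A : Matrix.SpecialLinearGroup (Fin 2) (KD φ 0)}
    (hA : A ^ 3 = 1) (hA1 : A ≠ 1) {τ : K ≃+* K} (hτ : τ ^ 3 = 1) {r : ℕ}
    (h : MTwo (MulAut.conj (PhiD hφ hK 0 cZ) * st q τ) (PhiD hφ hK 0) r) :
    MTwo (MulAut.conj (PhiD hφ hK 0 A) * st q τ) (PhiD hφ hK 0) r := by
  have := Fintype.ofFinite (KD φ 0)
  obtain ⟨G, hG⟩ := exists_conj_cZ (three_ne' hK hφ hq (by omega) 0) hA (ne_zero_three hK hφ hq h3 0 hA hA1)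
  refine mtwo_conj G ?_ h
  ext1 y
  simp only [MulAut.mul_apply, MulAut.conj_apply, MulAut.conj_inv_apply, map_mul, map_inv, hG]
  rw [st_Phi_zero hK hφ hq hτ]

end D4

end Cfsg.Agent.H164.TD
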